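import Cfsg.Agent.Lib.Watanabe.Trace
import Mathlib.GroupTheory.FiniteAbelian.Duality

/-!
# An element fixed by the inertia group
-/

set_option autoImplicit false
set_option linter.unusedSectionVars false
set_option linter.style.haveILetI false
set_option maxHeartbeats 1000000

namespace Cfsg.Agent.Lib.Watanabe

open Cfsg Cfsg.Agent.Lib Cfsg.Agent.Lib.Block Cfsg.Agent.Lib.BrauerPairs Cfsg.Agent.Lib.Star
open scoped ComplexConjugate

universe u

variable {p : ℕ} {M : Ideal AlgInt} [M.IsPrime] {G : Type u} [Group G] [Finite G]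
  {B : Set (IrrCharacter G)} {P : Subgroup G} {e : CBlock P}

/-- Occurrence gives inclusion when the defect group is abelian. -/
theorem le_of_occ (hM : IsPModular p M) (hP : IsPGroup p P) (he : IsPBlock M e)
    (hab : ∀ x ∈ P, ∀ y ∈ P, x * y = y * x) {Q : Subgroup G} (hQ : Q ≤ P) {f : CBlock Q}
    (hf : IsPBlock M f) (ho : Occ P e (pbar M Q f)) : SubpairLE p M Q f P e :=
  Relation.ReflTransGen.single ((rel_iff hM).2 ⟨hP, hf, he, hQ, le_normalizer_of_abelian hab hQ,
    fun _ hx => cj_pbar_of_centralizes Q f (le_centralizer_of_abelian hab hQ hx), ho⟩)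

theorem occ_of_le (hM : IsPModular p M) (hP : IsPGroup p P) (he : IsPBlock M e)
    (hab : ∀ x ∈ P, ∀ y ∈ P, x * y = y * x) {Q : Subgroup G} {f : CBlock Q}
    (hle : SubpairLE p M Q f P e) : Occ P e (pbar M Q f) :=
  (step_of_le hM hP he hle Relation.ReflTransGen.refl (subgroup_le hle)
    (le_normalizer_of_abelian hab (subgroup_le hle))).2.2.2.2.2.2

/-- The rank of the block below a maximal pair on each subgroup. -/
theorem exists_rank_fn (hM : IsPModular p M) (hP : IsPGroup p P) (he : IsPBlock M e) :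
    ∃ L : Subgroup G → ℕ, ∀ (Q : Subgroup G) (f : CBlock Q),
      SubpairLE p M Q f P e → L Q = blockRank p f := by
  have h : ∀ Q : Subgroup G, ∃ n : ℕ, ∀ f : CBlock Q,
      SubpairLE p M Q f P e → n = blockRank p f := by
    intro Q
    by_cases hQ : Q ≤ P
    · obtain ⟨f0, -, hle⟩ := exists_le hM hP he Q hQ
      exact ⟨blockRank p f0, fun f hf => by rw [le_unique hM hP he Q f f0 hf hle]⟩
    · exact ⟨0, fun f hf => absurd (subgroup_le hf) hQ⟩
  choose L hL using h
  exact ⟨L, hL⟩

theorem exists_block_emb_of_eq {H K : Subgroup G} (h : H = K) {b : Set (IrrCharacter H)}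
    (hb : IsPBlock M b) : ∃ g : Set (IrrCharacter K), IsPBlock M g ∧
      emb K (bar M g) = emb H (bar M b) ∧ blockRank p g = blockRank p b := by
  subst h
  exact ⟨b, hb, rfl, rfl⟩

/-- Equal centralisers give equal ranks. -/
theorem rank_eq_of_centralizer_eq (hM : IsPModular p M) (hP : IsPGroup p P) (he : IsPBlock M e)
    (hab : ∀ x ∈ P, ∀ y ∈ P, x * y = y * x) {Q V : Subgroup G} (hV : V ≤ P)
    (hC : Subgroup.centralizer (Q : Set G) = Subgroup.centralizer (V : Set G)) {L : Subgroup G → ℕ}
    (hL : ∀ (R : Subgroup G) (f : CBlock R), SubpairLE p M R f P e → L R = blockRank p f)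
    (hQ : Q ≤ P) : L Q = L V := by
  obtain ⟨f, hf, hle⟩ := exists_le hM hP he Q hQ
  obtain ⟨g, hg, hge, hr⟩ := exists_block_emb_of_eq (p := p) hC hf
  have hpb : pbar M V g = pbar M Q f := hge
  rw [hL Q f hle, hL V g (le_of_occ hM hP he hab hV hg (by
    rw [hpb]; exact occ_of_le hM hP he hab hle)), hr]

/-- The maximal pair inside the centraliser of a subgroup. -/
theorem exists_local (hM : IsPModular p M) (hmax : IsMaximalBrauerPair p M B P e)
    (hab : ∀ x ∈ P, ∀ y ∈ P, x * y = y * x) {Q : Subgroup G} {f : CBlock Q}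
    (hle : SubpairLE p M Q f P e) :
    ∃ e' : CBlock (P.subgroupOf (Subgroup.centralizer (Q : Set G))),
      IsMaximalBrauerPair p M f (P.subgroupOf (Subgroup.centralizer (Q : Set G))) e' ∧
      emb (Subgroup.centralizer (Q : Set G))
        (pbar M (P.subgroupOf (Subgroup.centralizer (Q : Set G))) e') = pbar M P e ∧
      (∀ x : Subgroup.centralizer (Q : Set G),
        x ∈ stab M (P.subgroupOf (Subgroup.centralizer (Q : Set G))) e' ↔
          (x : G) ∈ stab M P e) := by
  have hP : IsPGroup p P := hmax.1.1.1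
  have hcb : IsPBlock M e := hmax.1.1.2
  have hQP : Q ≤ P := subgroup_le hle
  have hPC := le_centralizer_of_abelian hab hQP
  obtain ⟨e', he', hee⟩ := exists_pull hPC
    (Subgroup.centralizer_le (SetLike.coe_subset_coe.2 hQP)) hcb
  have hf : IsPBlock M f := isPBlock_of_le hcb hle
  have ho' : Occ (P.subgroupOf (Subgroup.centralizer (Q : Set G))) e' (bar M f) := by
    refine emb_injective (Subgroup.centralizer (Q : Set G)) ?_
    rw [map_mul, hee, ← br_emb, Subgroup.map_subgroupOf_eq_of_le hPC]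
    exact occ_of_le hM hP hcb hab hle
  refine ⟨e', isMaximal_of_card hM ((isBrauerPairOf_iff hM).2
      ⟨hP.comap_subtype, he', hf, ho'⟩) ?_, hee,
    fun x => and_congr (mem_normalizer_subgroupOf hPC x) ?_⟩
  · rw [card_subgroupOf hPC, blockDefect_below_abelian hM hmax hab hle, card_maximal hM hmax]
  · show cj x (pbar M _ e') = pbar M _ e' ↔ cj (x : G) (pbar M P e) = pbar M P e
    rw [← hee, cj_emb, (emb_injective (Subgroup.centralizer (Q : Set G))).eq_iff]

/-- The ranks below the local pair are ranks below the maximal pair. -/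
theorem local_rank (hM : IsPModular p M) (hP : IsPGroup p P) (he : IsPBlock M e)
    (hab : ∀ x ∈ P, ∀ y ∈ P, x * y = y * x) {Q : Subgroup G} (hQ : Q ≤ P)
    {e' : CBlock (P.subgroupOf (Subgroup.centralizer (Q : Set G)))}
    (he' : IsPBlock M e')
    (hee : emb (Subgroup.centralizer (Q : Set G))
      (pbar M (P.subgroupOf (Subgroup.centralizer (Q : Set G))) e') = pbar M P e)
    {L : Subgroup G → ℕ}
    (hL : ∀ (R : Subgroup G) (f : CBlock R), SubpairLE p M R f P e → L R = blockRank p f)
    {R' : Subgroup (Subgroup.centralizer (Q : Set G))} {g : CBlock R'}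
    (hle : SubpairLE p M R' g (P.subgroupOf (Subgroup.centralizer (Q : Set G))) e') :
    L (Q ⊔ R'.map (Subgroup.centralizer (Q : Set G)).subtype) = blockRank p g := by
  have hPC := le_centralizer_of_abelian hab hQ
  have hR : R'.map (Subgroup.centralizer (Q : Set G)).subtype ≤ P := by
    rintro _ ⟨x, hx, rfl⟩
    exact Subgroup.mem_subgroupOf.1 (subgroup_le hle hx)
  have hV : Q ⊔ R'.map (Subgroup.centralizer (Q : Set G)).subtype ≤ P := sup_le hQ hR
  have hC : Subgroup.centralizer
      ((Q ⊔ R'.map (Subgroup.centralizer (Q : Set G)).subtype : Subgroup G) : Set G) ≤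
      Subgroup.centralizer (Q : Set G) :=
    Subgroup.centralizer_le (SetLike.coe_subset_coe.2 le_sup_left)
  have hiff := fun x => mem_centralizer_sup_of_mem (Q := Q) (R' := R') x
  have hab' : ∀ x ∈ P.subgroupOf (Subgroup.centralizer (Q : Set G)),
      ∀ y ∈ P.subgroupOf (Subgroup.centralizer (Q : Set G)), x * y = y * x := fun x hx y hy =>
    Subtype.ext (hab _ (Subgroup.mem_subgroupOf.1 hx) _ (Subgroup.mem_subgroupOf.1 hy))
  have hg : IsPBlock M g := isPBlock_of_le he' hle
  rw [← KleinDefect.blockRank_mapBlock (centSub hC hiff) p g]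
  refine hL _ _ (le_of_occ hM hP he hab hV (isPBlock_mapBlock _ hg) ?_)
  have hbr : ∀ z, br P (emb (Subgroup.centralizer (Q : Set G)) z) =
      emb (Subgroup.centralizer (Q : Set G))
        (br (P.subgroupOf (Subgroup.centralizer (Q : Set G))) (z : MonoidAlgebra (ResField M) _)) :=
    fun z => by rw [← br_emb, Subgroup.map_subgroupOf_eq_of_le hPC]
  rw [Occ, pbar_centSub hC hiff g, ← hee, hbr, ← map_mul]
  exact congrArg _ (occ_of_le hM hP.comap_subtype he' hab' hle)

/-- The averaging map of the inertia group. -/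
theorem exists_proj (hM : IsPModular p M) (hmax : IsMaximalBrauerPair p M B P e)
    (hab : ∀ x ∈ P, ∀ y ∈ P, x * y = y * x) :
    ∃ (π : P →* P) (n : ℕ), Nat.Coprime n (Nat.card P) ∧
      (∀ t (ht : t ∈ stab M P e) (z : P), π ⟨t * z * t⁻¹, conj_mem_of_stab z.2 ht⟩ = π z) ∧
      ∀ z : P, (∀ t ∈ stab M P e, t * (z : G) * t⁻¹ = z) → π z = z ^ n := by
  classical
  haveI : Fact p.Prime := ⟨hM.1⟩
  letI : CommGroup P :=
    { (inferInstance : Group P) with mul_comm := fun a b => Subtype.ext (hab _ a.2 _ b.2) }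
  let φ : stab M P e →* MulAut P :=
    { toFun := fun t => normEquiv t.2.1
      map_one' := MulEquiv.ext fun z => Subtype.ext (by rw [coe_normEquiv]; simp)
      map_mul' := fun s t => MulEquiv.ext fun z => Subtype.ext (by
        simp only [MulAut.mul_apply, coe_normEquiv, Subgroup.coe_mul]
        group) }
  haveI := Fintype.ofFinite φ.range
  have hker : φ.ker = (Subgroup.centralizer (P : Set G)).subgroupOf (stab M P e) := by
    ext t
    rw [MonoidHom.mem_ker, Subgroup.mem_subgroupOf, Subgroup.mem_centralizer_iff]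
    constructor
    · intro h z hz
      have h1 : (t : G) * z * (t : G)⁻¹ = z :=
        congrArg Subtype.val (DFunLike.congr_fun h (⟨z, hz⟩ : P))
      conv_lhs => rw [← h1]
      group
    · intro h
      refine MulEquiv.ext fun z => Subtype.ext ?_
      rw [MulAut.one_apply]
      show (t : G) * z * (t : G)⁻¹ = z
      rw [← h z z.2, mul_inv_cancel_right]
  have hcard : Fintype.card φ.range = (Subgroup.centralizer (P : Set G)).relIndex (stab M P e) := by
    rw [← Nat.card_eq_fintype_card, ← Subgroup.index_ker, hker]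
    rfl
  let π : P →* P :=
    { toFun := fun z => ∏ α : φ.range, (α : MulAut P) z
      map_one' := by simp
      map_mul' := fun a b => by simp [Finset.prod_mul_distrib] }
  refine ⟨π, Fintype.card φ.range, ?_, fun t ht z => ?_, fun z hz => ?_⟩
  · obtain ⟨k, hk⟩ := IsPGroup.iff_card.1 hmax.1.1.1
    rw [hk]
    refine Nat.Coprime.pow_right _ ((hM.1.coprime_iff_not_dvd.2 ?_).symm)
    rw [hcard]
    exact not_dvd_inertial hM hmax hab
  · show ∏ α : φ.range, (α : MulAut P) _ = ∏ α : φ.range, (α : MulAut P) z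
    rw [← Equiv.prod_comp (Equiv.mulRight (⟨φ ⟨t, ht⟩, ⟨⟨t, ht⟩, rfl⟩⟩ : φ.range))
      (fun α : φ.range => (α : MulAut P) z)]
    rfl
  · show ∏ α : φ.range, (α : MulAut P) z = _
    rw [Finset.prod_congr rfl fun (α : φ.range) _ => show (α : MulAut P) z = z by
      obtain ⟨⟨t, ht⟩, he⟩ := α.2
      rw [← he]
      exact Subtype.ext (hz t ht), Finset.prod_const, Finset.card_univ]

open scoped Classical in
/-- The number of characters. -/
theorem card_block_eq_sum_orb [Fintype G] (hM : IsPModular p M)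
    (hmax : IsMaximalBrauerPair p M B P e) (hab : ∀ x ∈ P, ∀ y ∈ P, x * y = y * x) (Lv : G → ℕ)
    (hLv : ∀ v ∈ P, ∀ f : CBlock (Subgroup.zpowers v),
      SubpairLE p M (Subgroup.zpowers v) f P e → Lv v = blockRank p f) :
    (Nat.card B : ℂ) = ∑ v ∈ Finset.univ.filter (· ∈ P),
      (Lv v : ℂ) / ((orb (stab M P e) v).card : ℂ) := by
  have hB : IsPBlock M B := hmax.1.2.1
  have hs : StableFn p M P e (fun _ => 1) := fun _ _ _ _ _ => rfl
  have h := sum_star_inner hM hmax hab hs Lv hLv
  simp only [one_mul] at h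
  rw [← h, Finset.sum_congr rfl fun χ _ => show
    (if χ ∈ B then classInner (starFn p M (weight p M P e fun _ => 1) (χ : G → ℂ)) (χ : G → ℂ)
      else 0) = if χ ∈ B then (1 : ℂ) else 0 by
    split_ifs with hχ
    · rw [show starFn p M (weight p M P e fun _ => 1) (χ : G → ℂ) = (χ : G → ℂ) from funext fun g => by
        rw [starFn_congr_pairs hM hB hχ (Λ' := fun _ _ => 1) (fun u f hp => by
          obtain ⟨y, -, -, h3⟩ := weight_pair hM hmax hs hp
          rw [h3]) g, starFn_one hM (Char.isClassFunction_of_isIrr χ.2)],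
        Char.classInner_irr_self χ.2]
    · rfl, Finset.sum_boole, Nat.card_eq_fintype_card, Fintype.card_subtype]

open scoped Classical in
/-- A nontrivial stable linear function fixes no member. -/
theorem trace_eq_zero [Fintype G] (hM : IsPModular p M) (hmax : IsMaximalBrauerPair p M B P e)
    (hab : ∀ x ∈ P, ∀ y ∈ P, x * y = y * x) {lam : G → ℂ} (hs : StableFn p M P e lam)
    (l : P →* ℂˣ) (hl : ∀ z : P, lam (z : G) = (l z : ℂ)) (hne : l ≠ 1) (Lv : G → ℕ)
    (hLv : ∀ v ∈ P, ∀ f : CBlock (Subgroup.zpowers v),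
      SubpairLE p M (Subgroup.zpowers v) f P e → Lv v = blockRank p f) :
    ∑ v ∈ Finset.univ.filter (· ∈ P),
      lam v * ((Lv v : ℂ) / ((orb (stab M P e) v).card : ℂ)) = 0 := by
  haveI : Fact p.Prime := ⟨hM.1⟩
  obtain ⟨hP, he, hB, -⟩ := (isBrauerPairOf_iff hM).1 hmax.1
  rw [← sum_star_inner hM hmax hab hs Lv hLv]
  refine Finset.sum_eq_zero fun χ _ => ?_
  split_ifs with hχ
  swap
  · rfl
  have hg : IsGeneralizedCharacter P fun z : P => lam (z : G) := by
    rw [show (fun z : P => lam (z : G)) = fun z => (l z : ℂ) from funext hl]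
    exact Dade.generalized_of_isCharacter
      (Char.isCharacter_of_isIrr (Char.isIrrCharacter_linear l))
  have hunit : ∀ z ∈ P, lam z * conj (lam z) = 1 := fun z hz => by
    have h := hl ⟨z, hz⟩
    rw [show lam z = (l ⟨z, hz⟩ : ℂ) from h, Complex.mul_conj']
    have hpow : ‖((l ⟨z, hz⟩ : ℂˣ) : ℂ)‖ = 1 :=
      Complex.norm_eq_one_of_pow_eq_one (n := Nat.card P)
        (by rw [← Units.val_pow_eq_pow_val, ← map_pow, pow_card_eq_one', map_one, Units.val_one])
        Nat.card_pos.ne'
    rw [hpow]; simp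
  have h1 : lam 1 = 1 := by
    have := hl 1
    simpa using this
  obtain ⟨χ', -, hχ', -⟩ := exists_star_irr hM hmax hs hg hunit h1 hχ
  rw [← hχ']
  refine Char.classInner_irr_ne χ'.2 χ.2 fun heq => hne (MonoidHom.ext fun z => Units.ext ?_)
  have hzc : (z : G) ∈ Subgroup.centralizer (P : Set G) :=
    Subgroup.mem_centralizer_iff.2 fun w hw => hab w hw _ z.2
  obtain ⟨s, hs', hsec⟩ := exists_sec_ne_zero_of_central hM hmax z.2 hzc hχ
  rw [← hl z]
  exact eq_one_of_fixed hM hs (Char.isClassFunction_of_isIrr χ.2) (hχ'.symm.trans heq) z.2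
    (Block.isPElem_of_mem hP z.2) (below_mem hM hP he z.2) hs' hsec

/-- The rank and number of characters of the block of the centraliser of a fixed element. -/
theorem main_aux (hM : IsPModular p M) (n : ℕ) :
    ∀ (G : Type u) [Group G] [Finite G] (B : Set (IrrCharacter G)) (P : Subgroup G) (e : CBlock P),
      Nat.card G = n → IsMaximalBrauerPair p M B P e → (∀ x ∈ P, ∀ y ∈ P, x * y = y * x) →
      ∀ u ∈ P, (∀ t ∈ stab M P e, t * u * t⁻¹ = u) → ∀ f : CBlock (Subgroup.zpowers u),
        SubpairLE p M (Subgroup.zpowers u) f P e →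
        blockRank p B = blockRank p f ∧ Nat.card B = Nat.card f := by
  classical
  induction n using Nat.strong_induction_on with
  | _ n ih =>
  intro G _ _ B P e hn hmax hab u hu huT f hfle
  haveI : Fact p.Prime := ⟨hM.1⟩
  haveI := Fintype.ofFinite G
  obtain ⟨hP, he, hB, -⟩ := (isBrauerPairOf_iff hM).1 hmax.1
  obtain ⟨L, hL⟩ := exists_rank_fn hM hP he
  have hLv : ∀ v ∈ P, ∀ g : CBlock (Subgroup.zpowers v),
      SubpairLE p M (Subgroup.zpowers v) g P e → L (Subgroup.zpowers v) = blockRank p g :=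
    fun v _ g hg => hL _ g hg
  have hzp : ∀ {v : G}, v ∈ P → Subgroup.zpowers v ≤ P := fun hv => Subgroup.zpowers_le.2 hv
  -- elements that are not central
  have hB' : ∀ v ∈ P, Subgroup.centralizer (Subgroup.zpowers v : Set G) ≠ ⊤ →
      L (Subgroup.zpowers v) = L (Subgroup.zpowers v ⊔ Subgroup.zpowers u) := by
    intro v hv hC
    obtain ⟨g, hg, hgle⟩ := exists_le hM hP he _ (hzp hv)
    obtain ⟨e', hmax', hee, hst⟩ := exists_local hM hmax hab hgle
    have huC : u ∈ Subgroup.centralizer (Subgroup.zpowers v : Set G) :=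
      Subgroup.mem_centralizer_iff.2 fun w hw => hab w (hzp hv hw) u hu
    have hlt : Nat.card (Subgroup.centralizer (Subgroup.zpowers v : Set G)) < n := by
      rw [← hn]
      refine lt_of_le_of_ne (Subgroup.card_le_card_group _) fun h => hC ?_
      exact Subgroup.eq_top_of_card_eq _ h
    have hu' : (⟨u, huC⟩ : Subgroup.centralizer (Subgroup.zpowers v : Set G)) ∈
        P.subgroupOf (Subgroup.centralizer (Subgroup.zpowers v : Set G)) :=
      Subgroup.mem_subgroupOf.2 hu
    obtain ⟨g', -, hg'le⟩ := exists_le hM hmax'.1.1.1 hmax'.1.1.2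
      (Subgroup.zpowers (⟨u, huC⟩ : Subgroup.centralizer (Subgroup.zpowers v : Set G)))
      (Subgroup.zpowers_le.2 hu')
    have h := (ih _ hlt _ g _ e' rfl hmax' (fun x hx y hy => Subtype.ext
      (hab _ (Subgroup.mem_subgroupOf.1 hx) _ (Subgroup.mem_subgroupOf.1 hy))) ⟨u, huC⟩ hu'
      (fun t ht => Subtype.ext (huT _ ((hst t).1 ht))) g' hg'le).1
    rw [hL _ g hgle, h, ← local_rank hM hP he hab (hzp hv) hmax'.1.1.2 hee hL hg'le,
      MonoidHom.map_zpowers]
    rfl
  have hLu : L (Subgroup.zpowers u) = blockRank p f := hL _ f hfle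
  have h1P : Subgroup.centralizer (Subgroup.zpowers (1 : G) : Set G) = ⊤ := eq_top_iff.2 fun g _ =>
    Subgroup.mem_centralizer_iff.2 fun w hw => by
      rw [Subgroup.zpowers_one_eq_bot, SetLike.mem_coe, Subgroup.mem_bot] at hw
      rw [hw, one_mul, mul_one]
  have hcen : ∀ v ∈ P, Subgroup.centralizer (Subgroup.zpowers v : Set G) = ⊤ →
      L (Subgroup.zpowers v) = blockRank p B := by
    intro v hv hC
    obtain ⟨g, hg, hgle⟩ := exists_le hM hP he _ (hzp hv)
    rw [hL _ g hgle]
    refine blockRank_eq_of_centralizer_top hB (fun x => ?_) hg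
      ((isBrauerPairOf_iff hM).1 ((pairOf_iff_of_le hM hP he hgle).2 hmax.1)).2.2.2
    rw [hC]; exact Subgroup.mem_top x
  -- the averaging map
  obtain ⟨π, m, hm, hπT, hπfix⟩ := exists_proj hM hmax hab
  haveI := Fintype.ofFinite P
  letI : CommGroup P :=
    { (inferInstance : Group P) with mul_comm := fun a b => Subtype.ext (hab _ a.2 _ b.2) }
  let uP : P := ⟨u, hu⟩
  let w : P → ℂ := fun v =>
    (L (Subgroup.zpowers (v : G)) : ℂ) / ((orb (stab M P e) (v : G)).card : ℂ)
  have hfix1 : ∀ v : P, (∀ t ∈ stab M P e, t * (v : G) * t⁻¹ = v) → π v = 1 → v = 1 := by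
    intro v hv h
    rw [hπfix v hv] at h
    have h2 : orderOf v ∣ Nat.gcd m (Nat.card P) :=
      Nat.dvd_gcd (orderOf_dvd_of_pow_eq_one h) (orderOf_dvd_natCard v)
    rw [hm.gcd_eq_one, Nat.dvd_one, orderOf_eq_one_iff] at h2
    exact h2
  have hcentral : ∀ v : P, Subgroup.centralizer (Subgroup.zpowers (v : G) : Set G) = ⊤ →
      ∀ t ∈ stab M P e, t * (v : G) * t⁻¹ = v := by
    intro v hC t _
    have : t ∈ Subgroup.centralizer (Subgroup.zpowers (v : G) : Set G) := hC ▸ Subgroup.mem_top t
    rw [← Subgroup.mem_centralizer_iff.1 this _ (Subgroup.mem_zpowers _), mul_inv_cancel_right]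
  have horbu : ∀ v : G, (orb (stab M P e) (u * v)).card = (orb (stab M P e) v).card := by
    intro v
    refine Finset.card_nbij' (fun x => u⁻¹ * x) (fun x => u * x) ?_ ?_ (fun x _ => by simp)
      (fun x _ => by simp) <;> intro x hx <;> simp only [Finset.mem_coe, mem_orb] at hx ⊢ <;>
      obtain ⟨t, ht, rfl⟩ := hx <;> refine ⟨t, ht, ?_⟩
    · calc t * v * t⁻¹ = u⁻¹ * (u * (t * v * t⁻¹)) := by group
        _ = u⁻¹ * (t * u * t⁻¹ * (t * v * t⁻¹)) := by rw [huT t ht]
        _ = u⁻¹ * (t * (u * v) * t⁻¹) := by group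
    · calc t * (u * v) * t⁻¹ = t * u * t⁻¹ * (t * v * t⁻¹) := by group
        _ = u * (t * v * t⁻¹) := by rw [huT t ht]
  -- characters of the defect group
  haveI : Finite (P →* ℂˣ) := by
    obtain ⟨eqv⟩ := CommGroup.monoidHom_mulEquiv_of_hasEnoughRootsOfUnity P ℂ
    exact Finite.of_equiv P eqv.symm.toEquiv
  haveI := Fintype.ofFinite (P →* ℂˣ)
  have hsum : ∀ φ : P →* ℂˣ, φ (π uP) ≠ 1 → ∑ v : P, (φ (π v) : ℂ) * w v = 0 := by
    intro φ hne
    let lam : G → ℂ := lamP P fun v => ((φ.comp π) v : ℂ)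
    have hs : StableFn p M P e lam := stableFn_of_stab hM hmax hab fun t ht z hz => by
      simp only [lam]
      rw [lamP_apply _ hz, lamP_apply _ (conj_mem_of_stab hz ht)]
      simp only [MonoidHom.comp_apply]
      rw [hπT t ht ⟨z, hz⟩]
    have h := trace_eq_zero hM hmax hab hs (φ.comp π) (fun z => lamP_apply _ z.2)
      (fun h => hne (DFunLike.congr_fun h uP)) (fun v => L (Subgroup.zpowers v)) hLv
    rw [Finset.sum_subtype (p := fun x => x ∈ P) _ (fun x => by simp)] at h
    rw [← h]
    exact Finset.sum_congr rfl fun v _ => by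
      simp only [lam, w]
      rw [lamP_apply _ v.2]
      rfl
  have horth : ∀ x : P, ∑ φ : P →* ℂˣ, (φ x : ℂ) =
      if x = 1 then (Fintype.card (P →* ℂˣ) : ℂ) else 0 := by
    intro x
    split_ifs with hx
    · simp [hx]
    · obtain ⟨φ₀, hφ₀⟩ := CommGroup.exists_apply_ne_one_of_hasEnoughRootsOfUnity P ℂ hx
      have h : (φ₀ x : ℂ) * ∑ φ : P →* ℂˣ, (φ x : ℂ) = ∑ φ : P →* ℂˣ, (φ x : ℂ) := by
        rw [Finset.mul_sum]
        conv_rhs => rw [← Equiv.sum_comp (Equiv.mulLeft φ₀)]
        simp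
      exact (mul_left_eq_self₀.1 h).resolve_left fun h0 => hφ₀ (Units.ext h0)
  -- compare the fibres over `1` and over the image of `u`
  have hfib : (∑ v : P, if π v = 1 then w v else 0) = ∑ v : P, if π v = π uP then w v else 0 := by
    have h : ∑ φ : P →* ℂˣ, (1 - (φ (π uP)⁻¹ : ℂ)) * ∑ v : P, (φ (π v) : ℂ) * w v = 0 := by
      refine Finset.sum_eq_zero fun φ _ => ?_
      by_cases hne : φ (π uP) = 1
      · rw [map_inv, hne]; simp
      · rw [hsum φ hne, mul_zero]
    simp only [Finset.mul_sum] at h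
    rw [Finset.sum_comm] at h
    have e2 : ∀ v : P, ∑ φ : P →* ℂˣ, (1 - (φ (π uP)⁻¹ : ℂ)) * ((φ (π v) : ℂ) * w v) =
        (Fintype.card (P →* ℂˣ) : ℂ) *
          ((if π v = 1 then w v else 0) - if π v = π uP then w v else 0) := by
      intro v
      rw [Finset.sum_congr rfl fun φ _ => show (1 - (φ (π uP)⁻¹ : ℂ)) * ((φ (π v) : ℂ) * w v) =
        (φ (π v) : ℂ) * w v - (φ ((π uP)⁻¹ * π v) : ℂ) * w v by
          rw [map_mul, Units.val_mul]; ring, Finset.sum_sub_distrib, ← Finset.sum_mul,
        ← Finset.sum_mul, horth, horth]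
      simp only [inv_mul_eq_one, eq_comm (a := π uP)]
      split_ifs <;> ring
    rw [Finset.sum_congr rfl fun v _ => e2 v, ← Finset.mul_sum, Finset.sum_sub_distrib] at h
    exact sub_eq_zero.1 ((mul_eq_zero.1 h).resolve_left (Nat.cast_ne_zero.2 Fintype.card_ne_zero))
  have hshift : (∑ v : P, if π v = π uP then w v else 0) =
      ∑ v : P, if π v = 1 then w (uP * v) else 0 := by
    rw [← Equiv.sum_comp (Equiv.mulLeft uP)]
    refine Finset.sum_congr rfl fun v _ => ?_
    simp only [Equiv.coe_mulLeft, map_mul, mul_eq_left]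
  rw [hshift, ← sub_eq_zero, ← Finset.sum_sub_distrib,
    Finset.sum_eq_single (1 : P) (fun v _ hv1 => ?_) (fun h => absurd (Finset.mem_univ _) h)] at hfib
  swap
  · split_ifs with hv
    swap
    · rw [sub_zero]
    have hC : Subgroup.centralizer (Subgroup.zpowers (v : G) : Set G) ≠ ⊤ :=
      fun hC => hv1 (hfix1 v (hcentral v hC) hv)
    have hC2 : Subgroup.centralizer (Subgroup.zpowers (u * (v : G)) : Set G) ≠ ⊤ := fun hC => by
      have h1 := hcentral (uP * v) hC
      refine hv1 (hfix1 v (fun t ht => ?_) hv)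
      have h2 : t * (u * (v : G)) * t⁻¹ = u * v := h1 t ht
      refine mul_left_cancel (a := u) ?_
      calc u * (t * (v : G) * t⁻¹) = t * u * t⁻¹ * (t * v * t⁻¹) := by rw [huT t ht]
        _ = t * (u * v) * t⁻¹ := by group
        _ = u * v := h2
    have hsup : Subgroup.zpowers (u * (v : G)) ⊔ Subgroup.zpowers u =
        Subgroup.zpowers (v : G) ⊔ Subgroup.zpowers u := by
      refine le_antisymm (sup_le (Subgroup.zpowers_le.2 (mul_mem
        (Subgroup.mem_sup_right (Subgroup.mem_zpowers u))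
        (Subgroup.mem_sup_left (Subgroup.mem_zpowers _)))) le_sup_right)
        (sup_le (Subgroup.zpowers_le.2 ?_) le_sup_right)
      have := mul_mem (inv_mem (Subgroup.mem_sup_right (S := Subgroup.zpowers (u * (v : G)))
        (Subgroup.mem_zpowers u))) (Subgroup.mem_sup_left (T := Subgroup.zpowers u)
        (Subgroup.mem_zpowers (u * (v : G))))
      simpa using this
    simp only [w]
    show (L (Subgroup.zpowers (v : G)) : ℂ) / _ - (L (Subgroup.zpowers (u * (v : G))) : ℂ) /
      ((orb (stab M P e) (u * (v : G))).card : ℂ) = 0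
    rw [horbu, hB' v v.2 hC, hB' _ (P.mul_mem hu v.2) hC2, hsup, sub_self]
  have horb1 : ∀ v : G, (∀ t ∈ stab M P e, t * v * t⁻¹ = v) → (orb (stab M P e) v).card = 1 := by
    intro v hv
    refine Finset.card_eq_one.2 ⟨v, Finset.eq_singleton_iff_unique_mem.2 ⟨self_mem_orb, fun x hx => ?_⟩⟩
    obtain ⟨t, ht, rfl⟩ := mem_orb.1 hx
    exact hv t ht
  have hl : blockRank p B = blockRank p f := by
    simp only [map_one, if_true, w, mul_one, OneMemClass.coe_one] at hfib
    rw [hcen 1 P.one_mem h1P, show ((uP : P) : G) = u from rfl, horb1 1 (fun t _ => by simp),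
      horb1 u huT, hLu, Nat.cast_one, div_one, div_one, sub_eq_zero] at hfib
    exact_mod_cast hfib
  refine ⟨hl, ?_⟩
  -- the number of characters
  obtain ⟨e', hmax', hee, hst⟩ := exists_local hM hmax hab hfle
  have hTH : ∀ t ∈ stab M P e, t ∈ (Subgroup.centralizer (Subgroup.zpowers u : Set G)) := by
    intro t ht
    rw [KleinDefect.centralizer_zpowers, Subgroup.mem_centralizer_singleton_iff]
    exact mul_inv_eq_iff_eq_mul.1 (huT t ht)
  haveI := Fintype.ofFinite (Subgroup.centralizer (Subgroup.zpowers u : Set G))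
  have hPH : P ≤ (Subgroup.centralizer (Subgroup.zpowers u : Set G)) := le_centralizer_of_abelian hab (hzp hu)
  have h := card_block_eq_sum_orb hM hmax hab (fun v => L (Subgroup.zpowers v)) hLv
  have h' := card_block_eq_sum_orb hM hmax'
    (fun x hx y hy => Subtype.ext
      (hab _ (Subgroup.mem_subgroupOf.1 hx) _ (Subgroup.mem_subgroupOf.1 hy)))
    (fun v => L (Subgroup.zpowers u ⊔ Subgroup.zpowers (v : G))) fun v _ g hg => by
      have h2 := local_rank hM hP he hab (hzp hu) hmax'.1.1.2 hee hL hg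
      rw [MonoidHom.map_zpowers] at h2
      exact h2
  have hkey : (Nat.card B : ℂ) = (Nat.card f : ℂ) := by
    rw [h, h']
    refine Finset.sum_bij (fun v hv => (⟨v, hPH (Finset.mem_filter.1 hv).2⟩ : (Subgroup.centralizer (Subgroup.zpowers u : Set G)))) (fun v hv => ?_)
      (fun v _ v' _ he => congrArg Subtype.val he) (fun v hv => ?_) fun v hv => ?_
    · exact Finset.mem_filter.2 ⟨Finset.mem_univ _,
        Subgroup.mem_subgroupOf.2 (Finset.mem_filter.1 hv).2⟩
    · exact ⟨(v : G), Finset.mem_filter.2 ⟨Finset.mem_univ _,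
        Subgroup.mem_subgroupOf.1 (Finset.mem_filter.1 hv).2⟩, rfl⟩
    · have hvP := (Finset.mem_filter.1 hv).2
      have horb : (orb (stab M (P.subgroupOf (Subgroup.centralizer (Subgroup.zpowers u : Set G))) e') (⟨v, hPH hvP⟩ : (Subgroup.centralizer (Subgroup.zpowers u : Set G)))).card =
          (orb (stab M P e) v).card := by
        refine Finset.card_bij (fun x _ => (x : G)) (fun x hx => ?_)
          (fun x _ y _ he => Subtype.ext he) fun x hx => ?_
        · obtain ⟨t, ht, rfl⟩ := mem_orb.1 hx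
          exact mem_orb.2 ⟨t, (hst t).1 ht, rfl⟩
        · obtain ⟨t, ht, rfl⟩ := mem_orb.1 hx
          exact ⟨_, mem_orb.2 ⟨⟨t, hTH t ht⟩, (hst _).2 ht, rfl⟩, rfl⟩
      show (L (Subgroup.zpowers v) : ℂ) / _ =
        (L (Subgroup.zpowers u ⊔ Subgroup.zpowers v) : ℂ) / _
      rw [horb]
      congr 2
      by_cases hC : Subgroup.centralizer (Subgroup.zpowers v : Set G) = ⊤
      · rw [hcen v hvP hC, hl, ← hLu]
        refine rank_eq_of_centralizer_eq hM hP he hab (sup_le (hzp hu) (hzp hvP)) ?_ hL (hzp hu)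
        refine le_antisymm (fun x hx => ?_) (Subgroup.centralizer_le
          (SetLike.coe_subset_coe.2 le_sup_left))
        have hxv : x ∈ Subgroup.centralizer (Subgroup.zpowers v : Set G) := hC ▸ Subgroup.mem_top x
        rw [Subgroup.mem_centralizer_iff]
        intro y hy
        have hle : Subgroup.zpowers u ⊔ Subgroup.zpowers v ≤
            Subgroup.centralizer ({x} : Set G) :=
          sup_le (fun q hq => Subgroup.mem_centralizer_singleton_iff.2
            (Subgroup.mem_centralizer_iff.1 hx q hq))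
            (fun q hq => Subgroup.mem_centralizer_singleton_iff.2
              (Subgroup.mem_centralizer_iff.1 hxv q hq))
        exact Subgroup.mem_centralizer_singleton_iff.1 (hle hy)
      · rw [hB' v hvP hC, sup_comm]
  exact_mod_cast hkey

end Cfsg.Agent.Lib.Watanabe
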