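import Cfsg.Agent.Lib.Star.Nilpotent
import Cfsg.Agent.Lib.Star.Action
import Cfsg.Agent.Lib.BrauerPairs.AbelianInertial
import Cfsg.Agent.Lib.Block.BrauerFeit

/-!
# The trace of twisting by a stable function on a block with abelian defect group
-/

set_option autoImplicit false
set_option linter.unusedSectionVars false
set_option linter.style.haveILetI false
set_option maxHeartbeats 1000000

namespace Cfsg.Agent.Lib.Watanabe

open Cfsg Cfsg.Agent.Lib Cfsg.Agent.Lib.Block Cfsg.Agent.Lib.BrauerPairs Cfsg.Agent.Lib.Star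
open scoped ComplexConjugate

universe u

variable {p : ℕ} {M : Ideal AlgInt} [M.IsPrime] {G : Type u} [Group G] [Finite G]
  {B : Set (IrrCharacter G)} {P : Subgroup G} {e : CBlock P}

open scoped Classical in
/-- The orbit of an element under a subgroup. -/
noncomputable def orb [Fintype G] (T : Subgroup G) (v : G) : Finset G :=
  Finset.univ.filter fun w => ∃ t ∈ T, t * v * t⁻¹ = w

theorem mem_orb [Fintype G] {T : Subgroup G} {v w : G} :
    w ∈ orb T v ↔ ∃ t ∈ T, t * v * t⁻¹ = w := by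
  simp [orb]

theorem self_mem_orb [Fintype G] {T : Subgroup G} {v : G} : v ∈ orb T v :=
  mem_orb.2 ⟨1, one_mem _, by simp⟩

theorem orb_eq_of_mem [Fintype G] {T : Subgroup G} {v w : G} (h : w ∈ orb T v) :
    orb T w = orb T v := by
  obtain ⟨t, ht, rfl⟩ := mem_orb.1 h
  ext x
  simp only [mem_orb]
  constructor
  · rintro ⟨s, hs, rfl⟩
    exact ⟨s * t, mul_mem hs ht, by group⟩
  · rintro ⟨s, hs, rfl⟩
    exact ⟨s * t⁻¹, mul_mem hs (inv_mem ht), by group⟩

/-- The stabiliser moves the blocks below a maximal pair among themselves. -/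
theorem below_stab (hM : IsPModular p M) (hP : IsPGroup p P) (he : IsPBlock M e) {z t : G}
    (hz : z ∈ P) (ht : t ∈ stab M P e) :
    cj t (below p M P e z) = below p M P e (t * z * t⁻¹) := by
  obtain ⟨f, hf, hle, hb⟩ := exists_below hM hP he hz
  have h1 : SubpairLE p M (sj t (Subgroup.zpowers z)) (conjBlock _ t f) P e := by
    have := le_cIdx hM hle t
    rwa [KleinDefect.stab_eq_self he ht] at this
  rw [hb, ← pbar_conjBlock]
  exact (below_eq hM hP he ((MulAut.conj t).toMonoidHom.map_zpowers z)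
    (isPBlock_conjBlock _ t hf) h1).symm

theorem conj_mem_of_stab {z t : G} (hz : z ∈ P) (ht : t ∈ stab M P e) : t * z * t⁻¹ ∈ P :=
  (Subgroup.mem_normalizer_iff.1 ht.1 z).1 hz

/-- Functions invariant under the stabiliser are stable when the defect group is abelian. -/
theorem stableFn_of_stab (hM : IsPModular p M) (hmax : IsMaximalBrauerPair p M B P e)
    (hab : ∀ x ∈ P, ∀ y ∈ P, x * y = y * x) {lam : G → ℂ}
    (h : ∀ t ∈ stab M P e, ∀ z ∈ P, lam (t * z * t⁻¹) = lam z) : StableFn p M P e lam := by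
  intro z hz g hgz hg
  obtain ⟨hP, he, -, -⟩ := (isBrauerPairOf_iff hM).1 hmax.1
  obtain ⟨f, hf, hle, hb⟩ := exists_below hM hP he hz
  obtain ⟨f', hf', hle', hb'⟩ := exists_below hM hP he hgz
  have hle2 : SubpairLE p M (sj g (Subgroup.zpowers z)) (conjBlock _ g f) P e := by
    unfold SubpairLE
    rw [idx_ext (show sj g (Subgroup.zpowers z) = Subgroup.zpowers (g * z * g⁻¹) from
        (MulAut.conj g).toMonoidHom.map_zpowers z) (isPBlock_conjBlock _ g hf) hf'
      (by rw [pbar_conjBlock, ← hb, hg, hb'])]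
    exact hle'
  obtain ⟨t, ht, hagree⟩ := exists_stab_agree_of_abelian hM hmax hab hle hle2
  rw [← hagree z (Subgroup.mem_zpowers z), h t ht z hz]

open scoped Classical in
/-- The elements carrying one subsection below the maximal pair. -/
theorem card_carriers_stab [Fintype G] (hM : IsPModular p M)
    (hmax : IsMaximalBrauerPair p M B P e) (hab : ∀ x ∈ P, ∀ y ∈ P, x * y = y * x) {u y0 : G}
    {fa : CBlock (Subgroup.zpowers u)} (hy0 : y0 * u * y0⁻¹ ∈ P)
    (hy0a : cj y0 (pbar M _ fa) = below p M P e (y0 * u * y0⁻¹)) :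
    (Finset.univ.filter fun y : G =>
        y * u * y⁻¹ ∈ P ∧ cj y (pbar M _ fa) = below p M P e (y * u * y⁻¹)).card =
      (orb (stab M P e) (y0 * u * y0⁻¹)).card *
        Nat.card (Subgroup.centralizer ({u} : Set G)) := by
  haveI := Fintype.ofFinite (Subgroup.centralizer ({u} : Set G))
  obtain ⟨hP, he, -, -⟩ := (isBrauerPairOf_iff hM).1 hmax.1
  set Y := Finset.univ.filter fun y : G =>
    y * u * y⁻¹ ∈ P ∧ cj y (pbar M _ fa) = below p M P e (y * u * y⁻¹) with hY
  have hmaps : ∀ y ∈ Y, y * u * y⁻¹ ∈ orb (stab M P e) (y0 * u * y0⁻¹) := by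
    intro y hy
    obtain ⟨-, h1, h2⟩ := Finset.mem_filter.1 hy
    obtain ⟨f, hf, hle, hb⟩ := exists_below hM hP he hy0
    obtain ⟨f', hf', hle', hb'⟩ := exists_below hM hP he h1
    have hgz : (y * y0⁻¹) * (y0 * u * y0⁻¹) * (y * y0⁻¹)⁻¹ = y * u * y⁻¹ := by group
    have hle2 : SubpairLE p M (sj (y * y0⁻¹) (Subgroup.zpowers (y0 * u * y0⁻¹)))
        (conjBlock _ (y * y0⁻¹) f) P e := by
      unfold SubpairLE
      rw [idx_ext (((MulAut.conj (y * y0⁻¹)).toMonoidHom.map_zpowers _).trans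
        (congrArg Subgroup.zpowers hgz)) (isPBlock_conjBlock _ _ hf) hf'
        (by rw [pbar_conjBlock, ← hb, ← hy0a, cj_cj, inv_mul_cancel_right, h2, hb'])]
      exact hle'
    obtain ⟨t, ht, hagree⟩ := exists_stab_agree_of_abelian hM hmax hab hle hle2
    exact mem_orb.2 ⟨t, ht, by rw [hagree _ (Subgroup.mem_zpowers _), hgz]⟩
  rw [Finset.card_eq_sum_card_fiberwise (f := fun y => y * u * y⁻¹) hmaps,
    Finset.sum_const_nat fun z hz => ?_]
  obtain ⟨t, ht, rfl⟩ := mem_orb.1 hz
  rw [Nat.card_eq_fintype_card, ← Finset.card_univ]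
  symm
  refine Finset.card_bij (fun c _ => t * y0 * (c : G)) (fun c _ => ?_)
    (fun c _ d _ h => Subtype.ext (mul_left_cancel h)) fun y hy => ?_
  · have hcu : (c : G) * u * (c : G)⁻¹ = u := by
      rw [Subgroup.mem_centralizer_singleton_iff.1 c.2, mul_inv_cancel_right]
    have hval : t * y0 * (c : G) * u * (t * y0 * (c : G))⁻¹ = t * (y0 * u * y0⁻¹) * t⁻¹ := by
      calc _ = t * y0 * ((c : G) * u * (c : G)⁻¹) * y0⁻¹ * t⁻¹ := by group
        _ = _ := by rw [hcu]; group
    refine Finset.mem_filter.2 ⟨Finset.mem_filter.2 ⟨Finset.mem_univ _, ?_, ?_⟩, hval⟩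
    · rw [hval]; exact conj_mem_of_stab hy0 ht
    · rw [hval, ← cj_cj, ← cj_cj, cj_pbar_of_centralizes _ fa (mem_centralizer_zpowers.2
        (Subgroup.mem_centralizer_singleton_iff.1 c.2).symm), hy0a, below_stab hM hP he hy0 ht]
  · obtain ⟨-, hyz⟩ := Finset.mem_filter.1 hy
    refine ⟨⟨(t * y0)⁻¹ * y, Subgroup.mem_centralizer_singleton_iff.2 ?_⟩, Finset.mem_univ _,
      mul_inv_cancel_left _ _⟩
    calc (t * y0)⁻¹ * y * u = (t * y0)⁻¹ * (y * u * y⁻¹) * y := by group
      _ = u * ((t * y0)⁻¹ * y) := by rw [hyz]; group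

/-- A block with its idempotent on an equal subgroup. -/
theorem exists_cblock_rank {H K : Subgroup G} (h : H = K) {b : Set (IrrCharacter H)}
    (hb : IsPBlock M b) : ∃ f : Set (IrrCharacter K), IsPBlock M f ∧
      fromSub K (eIdem f) = fromSub H (eIdem b) ∧ blockRank p f = blockRank p b := by
  subst h
  exact ⟨b, hb, rfl, rfl⟩

open scoped Classical in
/-- The members of the block at one subsection add up to its rank. -/
theorem sum_sec_rank [Fintype G] (hM : IsPModular p M) (hB : IsPBlock M B) {u : G}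
    (hu : IsPElem p u) {f : CBlock (Subgroup.zpowers u)}
    (hpair : IsBrauerPairOf p M B (Subgroup.zpowers u) f) :
    ∑ χ : IrrCharacter G, (if χ ∈ B then ∑ g : G, (if pp p g = u then
        sec M (χ : G → ℂ) u (pbar M _ f) g * conj (sec M (χ : G → ℂ) u (pbar M _ f) g) else 0)
      else 0) =
      (Nat.card (Subgroup.centralizer ({u} : Set G)) : ℂ) * (blockRank p f : ℂ) := by
  haveI : Fact p.Prime := ⟨hM.1⟩
  haveI := Fintype.ofFinite (Subgroup.centralizer ({u} : Set G))
  obtain ⟨-, hf, -, -⟩ := (isBrauerPairOf_iff hM).1 hpair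
  obtain ⟨b, hb, hbf, hr⟩ := exists_cblock_rank (p := p) (centralizer_zpowers_eq u) hf
  rw [← hr, ← sum_contrib_self hM hu hb, Finset.mul_sum]
  refine Finset.sum_congr rfl fun χ _ => ?_
  split_ifs with hχ
  · exact sec_sum_eq hM hu hf hbf _ _
  · rw [← sec_sum_eq hM hu hf hbf, eq_comm]
    refine Finset.sum_eq_zero fun g _ => ?_
    split_ifs with hg
    · obtain ⟨s, hs, hsg⟩ := exists_parts hM g
      subst hg
      have h0 := sec_eq_zero_of_not_mem hM hB hχ (isPElem_pp g) hpair hs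
      rw [hsg] at h0
      rw [h0, zero_mul]
    · rfl

open scoped Classical in
/-- The trace of twisting by a stable function. -/
theorem sum_star_inner [Fintype G] (hM : IsPModular p M) (hmax : IsMaximalBrauerPair p M B P e)
    (hab : ∀ x ∈ P, ∀ y ∈ P, x * y = y * x) {lam : G → ℂ} (hs : StableFn p M P e lam)
    (Lv : G → ℕ)
    (hLv : ∀ v ∈ P, ∀ f : CBlock (Subgroup.zpowers v),
      SubpairLE p M (Subgroup.zpowers v) f P e → Lv v = blockRank p f) :
    ∑ χ : IrrCharacter G, (if χ ∈ B then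
        classInner (starFn p M (weight p M P e lam) (χ : G → ℂ)) (χ : G → ℂ) else 0) =
      ∑ v ∈ Finset.univ.filter (· ∈ P),
        lam v * ((Lv v : ℂ) / ((orb (stab M P e) v).card : ℂ)) := by
  haveI : Fact p.Prime := ⟨hM.1⟩
  obtain ⟨hP, he, hB, -⟩ := (isBrauerPairOf_iff hM).1 hmax.1
  have h1 : ∀ χ : IrrCharacter G,
      classInner (starFn p M (weight p M P e lam) (χ : G → ℂ)) (χ : G → ℂ) = (Nat.card G : ℂ)⁻¹ *
        ∑ g : G, ∑ a ∈ pset M (Subgroup.zpowers (pp p g)), weight p M P e lam (pp p g) a *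
          (sec M (χ : G → ℂ) (pp p g) a g * conj (sec M (χ : G → ℂ) (pp p g) a g)) := by
    intro χ
    have hc := Char.isClassFunction_of_isIrr χ.2
    have hχ1 : (χ : G → ℂ) = starFn p M (fun _ _ => 1) (χ : G → ℂ) :=
      funext fun g => (starFn_one hM hc g).symm
    conv_lhs => arg 2; rw [hχ1]
    rw [classInner_starFn hM _ _ hc hc]
    simp
  let R : G → KG M G → ℂ := fun u a => ∑ χ : IrrCharacter G, if χ ∈ B then ∑ g : G,
    (if pp p g = u then sec M (χ : G → ℂ) u a g * conj (sec M (χ : G → ℂ) u a g) else 0) else 0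
  -- one subsection
  let Y : G → KG M G → Finset G := fun u a => Finset.univ.filter fun y =>
    y * u * y⁻¹ ∈ P ∧ cj y a = below p M P e (y * u * y⁻¹)
  let K : G → ℂ := fun v => lam v * ((Lv v : ℂ) / ((orb (stab M P e) v).card : ℂ))
  have hterm : ∀ u : G, IsPElem p u → ∀ a ∈ pset M (Subgroup.zpowers u),
      weight p M P e lam u a * R u a = ∑ y ∈ Y u a, K (y * u * y⁻¹) := by
    intro u hu a ha
    obtain ⟨fa, hfa, rfl⟩ := mem_pset.1 ha
    by_cases hex : ∃ y : G, y * u * y⁻¹ ∈ P ∧ cj y (pbar M _ fa) = below p M P e (y * u * y⁻¹)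
    swap
    · rw [weight_eq_zero hex, zero_mul, Finset.sum_eq_zero]
      intro y hy
      exact absurd ⟨y, (Finset.mem_filter.1 hy).2⟩ hex
    obtain ⟨y0, hy0, hy0a⟩ := hex
    set z0 := y0 * u * y0⁻¹ with hz0
    obtain ⟨f0, hf0, hle0, hb0⟩ := exists_below hM hP he hy0
    have hpair : IsBrauerPairOf p M B (Subgroup.zpowers u) fa := by
      have h0 := isBrauerPairOf_conj hM ((pairOf_iff_of_le hM hP he hle0).2 hmax.1) y0⁻¹
      rw [isBrauerPairOf_iff hM] at h0 ⊢
      obtain ⟨-, -, -, ho⟩ := h0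
      refine ⟨hu.isPGroup_zpowers, hfa, hB, ?_⟩
      have hQ : sj y0⁻¹ (Subgroup.zpowers z0) = Subgroup.zpowers u := by
        rw [hz0, sj, MonoidHom.map_zpowers]
        simp [mul_assoc]
      rw [Occ, pbar_conjBlock, hQ, ← hb0, ← hy0a, cj_cj, inv_mul_cancel, cj_one_apply] at ho
      exact ho
    have hrank : blockRank p fa = Lv z0 := by
      rw [hLv z0 hy0 f0 hle0]
      have hQ : sj y0 (Subgroup.zpowers u) = Subgroup.zpowers z0 :=
        (MulAut.conj y0).toMonoidHom.map_zpowers u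
      have hid : (⟨sj y0 (Subgroup.zpowers u), conjBlock _ y0 fa⟩ : BrauerPairIdx G) = ⟨_, f0⟩ :=
        idx_ext hQ (isPBlock_conjBlock _ _ hfa) hf0 (by rw [pbar_conjBlock, hy0a, hb0])
      have h := congrArg (fun b : BrauerPairIdx G => blockRank p b.2) hid
      change blockRank p (conjBlock _ y0 fa) = _ at h
      rwa [conjBlock_eq, KleinDefect.blockRank_mapBlock] at h
    have hconst : ∀ y ∈ Y u (pbar M _ fa), K (y * u * y⁻¹) = K z0 := by
      intro y hy
      obtain ⟨-, h1, h2⟩ := Finset.mem_filter.1 hy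
      obtain ⟨f1, hf1, hle1, hb1⟩ := exists_below hM hP he h1
      have ht : (y * y0⁻¹) * z0 * (y * y0⁻¹)⁻¹ = y * u * y⁻¹ := by rw [hz0]; group
      have hle2 : SubpairLE p M (sj (y * y0⁻¹) (Subgroup.zpowers z0))
          (conjBlock _ (y * y0⁻¹) f0) P e := by
        unfold SubpairLE
        rw [idx_ext (((MulAut.conj (y * y0⁻¹)).toMonoidHom.map_zpowers _).trans
          (congrArg Subgroup.zpowers ht)) (isPBlock_conjBlock _ _ hf0) hf1
          (by rw [pbar_conjBlock, ← hb0, ← hy0a, cj_cj, inv_mul_cancel_right, h2, hb1])]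
        exact hle1
      obtain ⟨t, ht', hagree⟩ := exists_stab_agree_of_abelian hM hmax hab hle0 hle2
      have hz : t * z0 * t⁻¹ = y * u * y⁻¹ := by
        rw [hagree _ (Subgroup.mem_zpowers _), ht]
      have hL : Lv (y * u * y⁻¹) = Lv z0 := by
        rw [hLv _ h1 f1 hle1, hLv z0 hy0 f0 hle0]
        have hid : (⟨sj (y * y0⁻¹) (Subgroup.zpowers z0), conjBlock _ (y * y0⁻¹) f0⟩ :
            BrauerPairIdx G) = ⟨_, f1⟩ :=
          idx_unique hM hP he (((MulAut.conj (y * y0⁻¹)).toMonoidHom.map_zpowers _).trans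
            (congrArg Subgroup.zpowers ht)) hle2 hle1
        have h := congrArg (fun b : BrauerPairIdx G => blockRank p b.2) hid
        change blockRank p (conjBlock _ (y * y0⁻¹) f0) = _ at h
        rwa [conjBlock_eq, KleinDefect.blockRank_mapBlock, eq_comm] at h
      simp only [K]
      rw [hL, orb_eq_of_mem (mem_orb.2 ⟨t, ht', hz⟩), ← hz, hs z0 hy0 t
        (conj_mem_of_stab hy0 ht') (below_stab hM hP he hy0 ht')]
    rw [Finset.sum_congr rfl hconst, Finset.sum_const, nsmul_eq_mul,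
      card_carriers_stab hM hmax hab hy0 hy0a, weight_eq hs hy0 hy0a]
    simp only [R]
    rw [sum_sec_rank hM hB hu hpair, hrank]
    simp only [K]
    have ho : ((orb (stab M P e) z0).card : ℂ) ≠ 0 :=
      Nat.cast_ne_zero.2 (Finset.card_ne_zero.2 ⟨z0, self_mem_orb⟩)
    push_cast
    field_simp
    simp only [z0]
    ring
  -- reorganise
  have h2 : ∑ χ : IrrCharacter G, (if χ ∈ B then
      classInner (starFn p M (weight p M P e lam) (χ : G → ℂ)) (χ : G → ℂ) else 0) =
      (Nat.card G : ℂ)⁻¹ * ∑ u ∈ Finset.univ.filter (fun u : G => IsPElem p u),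
        ∑ a ∈ pset M (Subgroup.zpowers u), weight p M P e lam u a * R u a := by
    rw [← Finset.sum_filter, Finset.sum_congr rfl fun χ _ => h1 χ, ← Finset.mul_sum]
    congr 1
    rw [Finset.sum_comm, ← Finset.sum_fiberwise_of_maps_to
      (t := Finset.univ.filter fun u : G => IsPElem p u) (g := fun g : G => pp p g)
      fun g _ => Finset.mem_filter.2 ⟨Finset.mem_univ _, isPElem_pp g⟩]
    refine Finset.sum_congr rfl fun u _ => ?_
    rw [Finset.sum_congr rfl fun g hg => show _ = ∑ a ∈ pset M (Subgroup.zpowers u),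
        ∑ χ ∈ Finset.univ.filter (fun χ : IrrCharacter G => χ ∈ B), weight p M P e lam u a *
          (sec M (χ : G → ℂ) u a g * conj (sec M (χ : G → ℂ) u a g)) by
      rw [(Finset.mem_filter.1 hg).2, Finset.sum_comm], Finset.sum_comm]
    refine Finset.sum_congr rfl fun a _ => ?_
    simp only [R, ← Finset.sum_filter, Finset.mul_sum]
    exact Finset.sum_comm
  rw [h2, Finset.sum_congr rfl fun u hu => Finset.sum_congr rfl fun a ha =>
    hterm u (Finset.mem_filter.1 hu).2 a ha]
  have hswap : (∑ u ∈ Finset.univ.filter (fun u : G => IsPElem p u),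
      ∑ a ∈ pset M (Subgroup.zpowers u), ∑ y ∈ Y u a, K (y * u * y⁻¹)) =
      ∑ _y : G, ∑ v ∈ Finset.univ.filter (· ∈ P), K v := by
    rw [Finset.sum_congr rfl fun u _ => (Finset.sum_biUnion (s := pset M (Subgroup.zpowers u))
      (t := Y u) (f := fun y => K (y * u * y⁻¹)) fun a _ b _ hne => Finset.disjoint_left.2
        fun y hya hyb => hne ((cj (M := M) y).injective
          ((Finset.mem_filter.1 hya).2.2.trans (Finset.mem_filter.1 hyb).2.2.symm))).symm]
    have hU : ∀ u ∈ Finset.univ.filter (fun u : G => IsPElem p u),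
        (pset M (Subgroup.zpowers u)).biUnion (Y u) =
          Finset.univ.filter fun y : G => y * u * y⁻¹ ∈ P := by
      intro u _
      ext y
      simp only [Finset.mem_biUnion, Finset.mem_filter, Finset.mem_univ, true_and, Y]
      refine ⟨fun ⟨a, _, h, _⟩ => h, fun h => ⟨cj y⁻¹ (below p M P e (y * u * y⁻¹)), ?_, h,
        by rw [cj_cj, mul_inv_cancel, cj_one_apply]⟩⟩
      have h3 := cj_mem_pset' (t := y⁻¹) (below_mem hM hP he h)
      rwa [show y⁻¹ * (y * u * y⁻¹) * y⁻¹⁻¹ = u by group] at h3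
    rw [Finset.sum_congr rfl fun u hu => Finset.sum_congr (hU u hu) fun _ _ => rfl,
      Finset.sum_comm' (t' := Finset.univ) (s' := fun y =>
        Finset.univ.filter fun u : G => y * u * y⁻¹ ∈ P) fun u y => ?_]
    · refine Finset.sum_congr rfl fun y _ => Finset.sum_nbij' (fun u => y * u * y⁻¹)
        (fun v => y⁻¹ * v * y) ?_ ?_ ?_ ?_ ?_ <;> intro v hv <;>
          simp [mul_assoc] at hv ⊢ <;> assumption
    · simp only [Finset.mem_filter, Finset.mem_univ, true_and, and_true]
      refine ⟨And.right, fun h => ⟨?_, h⟩⟩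
      have := (Block.isPElem_of_mem hP h).conj y⁻¹
      simpa [mul_assoc] using this
  rw [hswap, Finset.sum_const, Finset.card_univ, nsmul_eq_mul, ← Nat.card_eq_fintype_card,
    ← mul_assoc, inv_mul_cancel₀ (Nat.cast_ne_zero.2 Nat.card_pos.ne'), one_mul]

end Cfsg.Agent.Lib.Watanabe
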